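import Groth.Agent.Fcompl.H553.EssSurj

/-!
# Coherent systems of modules on the formal spectrum come from finite modules: main theorem
-/

set_option autoImplicit false
universe u

open CategoryTheory CategoryTheory.Limits AlgebraicGeometry

namespace Groth.Agent.Fcompl.H553.EssMain

open Groth.Agent.Fcompl.H552.SpecKill Groth.Agent.Fcompl.H552.HomSpec Groth.Agent.Fcompl.H553.EssSurj

variable {A : Type u} [CommRing A] (J : Ideal A)

theorem isIso_comp₄ {C : Type*} [Category C] {X Y Z W V : C} (a : X ⟶ Y) (b : Y ⟶ Z) (c : Z ⟶ W)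
    (d : W ⟶ V) (ha : IsIso a) (hb : IsIso b) (hc : IsIso c) (hd : IsIso d) :
    IsIso (a ≫ b ≫ c ≫ d) := inferInstance

/-- The transition isomorphism comes from a unique map of modules, and it is surjective with kernel
`J^(n+1) Q₁`. -/
theorem exists_trans
    (𝔐 : FSch.ModSys (FSch.completionAlong (Spec (CommRingCat.of A)) (FSch.idealSpec A J)))
    (n : ℕ) (Q₁ Q₀ : ModuleCat.{u} A) (hQ₀ : ∀ a ∈ J ^ (n + 1), ∀ q : Q₀, a • q = 0)
    (a₁ : (restr J (n + 1)).obj ((tilde.functor (CommRingCat.of A)).obj Q₁) ≅ 𝔐.F (n + 1))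
    (a₀ : (restr J n).obj ((tilde.functor (CommRingCat.of A)).obj Q₀) ≅ 𝔐.F n) :
    ∃ f : Q₁ ⟶ Q₀, Function.Surjective f.hom ∧
      LinearMap.ker f.hom = (J ^ (n + 1) • ⊤ : Submodule A Q₁) ∧
      (FSch.complTransIso (FSch.idealSpec A J) n).hom.app
          ((tilde.functor (CommRingCat.of A)).obj Q₁) ≫
        (restr J n).map ((tilde.functor (CommRingCat.of A)).map f) ≫ a₀.hom =
        (Scheme.Modules.pullback ((FSch.completionAlong _ (FSch.idealSpec A J)).ι n)).map a₁.hom ≫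
          (𝔐.e n).hom := by
  let c := (FSch.complTransIso (FSch.idealSpec A J) n).app ((tilde.functor (CommRingCat.of A)).obj Q₁)
  let b : (restr J n).obj ((tilde.functor (CommRingCat.of A)).obj Q₁) ≅
      (restr J n).obj ((tilde.functor (CommRingCat.of A)).obj Q₀) :=
    c.symm ≪≫ (Scheme.Modules.pullback ((FSch.completionAlong _ (FSch.idealSpec A J)).ι n)).mapIso a₁ ≪≫
      (𝔐.e n) ≪≫ a₀.symm
  obtain ⟨f, hf⟩ := (restr_tilde_bijective J n Q₁ Q₀ hQ₀).2 b.hom
  have hf' : (restr J n).map ((tilde.functor (CommRingCat.of A)).map f) = b.hom := hf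
  have hiso : IsIso ((restr J n).map ((tilde.functor (CommRingCat.of A)).map f)) := by
    rw [hf']
    exact b.isIso_hom
  obtain ⟨h1, h2⟩ := surjective_ker J n hQ₀ f hiso
  refine ⟨f, h1, h2, ?_⟩
  rw [hf']
  change c.hom ≫ (c.inv ≫ (Scheme.Modules.pullback
    ((FSch.completionAlong _ (FSch.idealSpec A J)).ι n)).map a₁.hom ≫ (𝔐.e n).hom ≫ a₀.inv) ≫
      a₀.hom = _
  simp only [Category.assoc, Iso.inv_hom_id, Category.comp_id]
  rw [← Category.assoc, c.hom_inv_id, Category.id_comp]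

/-- A levelwise isomorphism of systems is an isomorphism. -/
theorem nonempty_iso {𝔛 : FSch.Sys.{u}} {𝔐 𝔑 : FSch.ModSys 𝔛} (φ : 𝔐 ⟶ 𝔑)
    (h : ∀ n, IsIso (FSch.ModSys.Hom.app φ n)) : Nonempty (𝔐 ≅ 𝔑) := by
  let ψ : 𝔑 ⟶ 𝔐 := ⟨fun n => inv (FSch.ModSys.Hom.app φ n), fun n => by
    rw [← cancel_epi ((Scheme.Modules.pullback (𝔛.ι n)).map (FSch.ModSys.Hom.app φ (n + 1))),
      ← Category.assoc, ← Functor.map_comp, IsIso.hom_inv_id, CategoryTheory.Functor.map_id,
      Category.id_comp, ← Category.assoc, FSch.ModSys.Hom.comm φ n, Category.assoc,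
      IsIso.hom_inv_id, Category.comp_id]⟩
  refine ⟨⟨φ, ψ, ?_, ?_⟩⟩
  · apply FSch.ModSys.Hom.ext
    funext n
    exact IsIso.hom_inv_id (FSch.ModSys.Hom.app φ n)
  · apply FSch.ModSys.Hom.ext
    funext n
    exact IsIso.inv_hom_id (FSch.ModSys.Hom.app φ n)

theorem abstract_comm {C D D' : Type*} [Category C] [Category D] [Category D'] (R₁ : C ⥤ D')
    (R₀ : C ⥤ D) (P : D' ⥤ D) (c : R₁ ⋙ P ≅ R₀) {L Q₁ Q₀ : C} (π₁ : L ⟶ Q₁) (π₀ : L ⟶ Q₀)
    (f : Q₁ ⟶ Q₀) (hπ : π₁ ≫ f = π₀) {F₁ : D'} {F₀ : D} (a₁ : R₁.obj Q₁ ⟶ F₁) (a₀ : R₀.obj Q₀ ⟶ F₀)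
    (e : P.obj F₁ ⟶ F₀) (hf : c.hom.app Q₁ ≫ R₀.map f ≫ a₀ = P.map a₁ ≫ e) :
    P.map (R₁.map π₁ ≫ a₁) ≫ e = c.hom.app L ≫ R₀.map π₀ ≫ a₀ := by
  have h1 := c.hom.naturality π₁
  simp only [Functor.comp_map] at h1
  rw [Functor.map_comp, Category.assoc, ← hf, ← Category.assoc, h1, ← hπ, Functor.map_comp,
    Category.assoc, Category.assoc]

/-- **Main theorem**. -/
theorem main [IsNoetherianRing A] [IsAdicComplete J A]
    (𝔐 : FSch.ModSys (FSch.completionAlong (Spec (CommRingCat.of A)) (FSch.idealSpec A J)))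
    (h𝔐 : 𝔐.IsCoh) :
    ∃ M : ModuleCat.{u} A, Module.Finite A M ∧
      Nonempty (𝔐 ≅ FSch.complMod (FSch.idealSpec A J)
        ((tilde.functor (CommRingCat.of A)).obj M)) := by
  choose Q hfin hkill a using fun n => exists_level J n (𝔐.F n) (h𝔐 n)
  choose f hsurj hker hcomm using fun n => exists_trans J 𝔐 n (Q (n + 1)) (Q n) (hkill n)
    (a (n + 1)).some (a n).some
  let L : Submodule A (∀ n, Q n) :=
    { carrier := {x | ∀ n, (f n).hom (x (n + 1)) = x n}
      add_mem' := fun {x y} hx hy n => by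
        change (f n).hom (x (n + 1) + y (n + 1)) = x n + y n
        rw [map_add, hx n, hy n]
      zero_mem' := fun n => map_zero _
      smul_mem' := fun c x hx n => by
        change (f n).hom (c • x (n + 1)) = c • x n
        rw [map_smul, hx n] }
  let π : ∀ n, L →ₗ[A] Q n := fun n => (LinearMap.proj n) ∘ₗ L.subtype
  obtain ⟨h1, h2, h3⟩ := Groth.Agent.Ega1.LimitSystem.main (I := J) (M := fun n => Q n)
    (f := fun n => (f n).hom) (L := L) (π := π) (IsNoetherian.noetherian J) hsurj hker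
    (fun n => by
      ext x
      exact x.2 n)
    (fun x hx => by
      ext n
      exact hx n)
    (fun y hy => ⟨⟨y, hy⟩, fun n => rfl⟩)
  let M : ModuleCat.{u} A := ModuleCat.of A L
  have hM : Module.Finite A M := h3 inferInstance (hfin 0)
  let p : ∀ n, M ⟶ Q n := fun n => ModuleCat.ofHom (π n)
  have hp : ∀ n, p (n + 1) ≫ f n = p n := fun n => by
    ext x
    exact x.2 n
  have hpiso : ∀ n, IsIso ((restr J n).map ((tilde.functor (CommRingCat.of A)).map (p n))) := fun n =>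
    isIso_pullback_tilde_map J (n + 1) (p n) (h2 n).1 (fun x hx => by
      have h5 : x ∈ LinearMap.ker (π n) := hx
      rw [(h2 n).2] at h5
      exact h5)
  refine ⟨M, hM, ?_⟩
  let φ : FSch.complMod (FSch.idealSpec A J) ((tilde.functor (CommRingCat.of A)).obj M) ⟶ 𝔐 :=
    ⟨fun n => (restr J n).map ((tilde.functor (CommRingCat.of A)).map (p n)) ≫ (a n).some.hom,
      fun n => abstract_comm (restr J (n + 1)) (restr J n)
        (Scheme.Modules.pullback ((FSch.completionAlong _ (FSch.idealSpec A J)).ι n))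
        (FSch.complTransIso (FSch.idealSpec A J) n)
        ((tilde.functor (CommRingCat.of A)).map (p (n + 1)))
        ((tilde.functor (CommRingCat.of A)).map (p n))
        ((tilde.functor (CommRingCat.of A)).map (f n))
        (by rw [← Functor.map_comp, hp]) (a (n + 1)).some.hom (a n).some.hom (𝔐.e n).hom (hcomm n)⟩
  obtain ⟨e⟩ := nonempty_iso φ (fun n => by
    have := hpiso n
    change IsIso ((restr J n).map ((tilde.functor (CommRingCat.of A)).map (p n)) ≫ (a n).some.hom)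
    infer_instance)
  exact ⟨e.symm⟩

end Groth.Agent.Fcompl.H553.EssMain
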