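import Groth.Agent.Fcompl.H552.HomSpec
import Groth.Agent.CohqA.AffPush
import Groth.Agent.Ega1.LimitSystem
import Groth.Agent.Ega1.FTAffine

/-!
# Coherent systems of modules on the formal spectrum come from finite modules

For `𝔐` a coherent system on the completion of `Spec A` along `J` with `A` Noetherian and `J`-adically
complete, `L = lim Γ(i_n_* F_n)` satisfies `L^Δ ≅ 𝔐` as systems.
-/

set_option autoImplicit false
universe u

open CategoryTheory CategoryTheory.Limits AlgebraicGeometry

namespace Groth.Agent.Fcompl.H553.EssSurj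

open Groth.Agent.Fcompl.H552.SpecKill Groth.Agent.Fcompl.H552.HomSpec Groth.Agent.FormalB.TrKQuot

/-- A quasi-coherent module on `Spec R` is `~` of a module. -/
theorem exists_tilde_qcoh {R : CommRingCat.{u}} (G : (Spec R).Modules) (hG : Coh.IsQCoh G) :
    ∃ (Q : ModuleCat.{u} R), Nonempty (tilde Q ≅ G) := by
  have hq : G.IsQuasicoherent := hG
  have e := (asIso G.fromTildeΓ).symm
  exact ⟨_, ⟨e.symm⟩⟩

/-- A coherent module on `Spec R` is `~` of a finite module. -/
theorem exists_tilde_coh {R : CommRingCat.{u}} (G : (Spec R).Modules) (hG : Coh.IsCoh G) :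
    ∃ (Q : ModuleCat.{u} R), Module.Finite R Q ∧ Nonempty (tilde Q ≅ G) := by
  obtain ⟨Q, ⟨e⟩⟩ := exists_tilde_qcoh G hG.1
  exact ⟨Q, Groth.Agent.Ega1.FTAffine.finite_of_isFiniteType Q e.symm hG.2, ⟨e⟩⟩

theorem exists_tilde_functor {R : CommRingCat.{u}} (G : (Spec R).Modules) (hG : Coh.IsCoh G) :
    ∃ (Q : ModuleCat.{u} R), Module.Finite R Q ∧ Nonempty ((tilde.functor R).obj Q ≅ G) :=
  exists_tilde_coh G hG

variable {A : Type u} [CommRing A] (J : Ideal A)

theorem exists_tilde (G : (Spec (CommRingCat.of A)).Modules) (hG : Coh.IsCoh G) :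
    ∃ (Q : ModuleCat.{u} A), Module.Finite A Q ∧
      Nonempty ((tilde.functor (CommRingCat.of A)).obj Q ≅ G) :=
  exists_tilde_functor (R := CommRingCat.of A) G hG

/-- A coherent module on a closed subscheme `V(K)` of `Spec A` is the restriction of `Q~`, `Q~` killed
by `K`, `Q` finite. -/
theorem exists_level_aux (K : (Spec (CommRingCat.of A)).IdealSheafData) (F : K.subscheme.Modules)
    (hF : Coh.IsCoh F) :
    ∃ (Q : ModuleCat.{u} A), Module.Finite A Q ∧
      ClSub.KilledByIdeal K ((tilde.functor (CommRingCat.of A)).obj Q) ∧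
      Nonempty ((Scheme.Modules.pullback K.subschemeι).obj
        ((tilde.functor (CommRingCat.of A)).obj Q) ≅ F) := by
  have hG : Coh.IsCoh ((Scheme.Modules.pushforward K.subschemeι).obj F) :=
    ⟨Groth.Agent.CohqA.AffPush.isQCoh_push K.subschemeι F hF.1,
      Groth.Agent.CohqA.AffPush.isFT_push K.subschemeι F hF.1 hF.2⟩
  obtain ⟨Q, hQ, ⟨e⟩⟩ := exists_tilde _ hG
  have hk : ClSub.KilledByIdeal K ((Scheme.Modules.pushforward K.subschemeι).obj F) :=
    killed_pushforward K F
  have hc : IsIso ((Scheme.Modules.pullbackPushforwardAdjunction K.subschemeι).counit.app F) :=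
    isIso_counit K F
  refine ⟨Q, hQ, ?_, ⟨(Scheme.Modules.pullback K.subschemeι).mapIso e ≪≫
    @asIso _ _ _ _ ((Scheme.Modules.pullbackPushforwardAdjunction K.subschemeι).counit.app F) hc⟩⟩
  exact Groth.Agent.FormalB.KQuot.killedByIdeal_of_mono e.hom hk

theorem unit_injective {R : CommRingCat.{u}} (Q : ModuleCat.{u} R) :
    Function.Injective ((tilde.adjunction (R := R)).unit.app Q) :=
  (ConcreteCategory.bijective_of_isIso ((tilde.adjunction (R := R)).unit.app Q)).1

/-- If `Q~` is killed by `(idealSpec A J)^n` then `J^n` kills `Q`. -/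
theorem smul_eq_zero_of_killed (n : ℕ) (Q : ModuleCat.{u} A)
    (h : ClSub.KilledByIdeal ((FSch.idealSpec A J) ^ n) ((tilde.functor (CommRingCat.of A)).obj Q))
    {a : A} (ha : a ∈ J ^ n) (q : Q) : a • q = 0 := by
  have h1 := smul_Γ_eq_zero J n h ha ((tilde.adjunction (R := CommRingCat.of A)).unit.app Q q)
  have hinj : Function.Injective ((tilde.adjunction (R := CommRingCat.of A)).unit.app Q) :=
    unit_injective (R := CommRingCat.of A) Q
  apply hinj
  rw [map_zero]
  refine Eq.trans ?_ h1
  exact ((tilde.adjunction (R := CommRingCat.of A)).unit.app Q).hom.map_smul a q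

/-- A coherent module on level `n` is the restriction of `Q~`, `Q` finite killed by `J^(n+1)`. -/
theorem exists_level (n : ℕ) (F : ((FSch.completionAlong _ (FSch.idealSpec A J)).X n).Modules)
    (hF : Coh.IsCoh F) :
    ∃ (Q : ModuleCat.{u} A), Module.Finite A Q ∧ (∀ a ∈ J ^ (n + 1), ∀ q : Q, a • q = 0) ∧
      Nonempty ((restr J n).obj ((tilde.functor (CommRingCat.of A)).obj Q) ≅ F) := by
  obtain ⟨Q, h1, h2, h3⟩ := exists_level_aux ((FSch.idealSpec A J) ^ (n + 1)) F hF
  exact ⟨Q, h1, fun a ha q => smul_eq_zero_of_killed J (n + 1) Q h2 ha q, h3⟩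

theorem killed_tilde (n : ℕ) (Q : ModuleCat.{u} A) (hQ : ∀ a ∈ J ^ (n + 1), ∀ q : Q, a • q = 0) :
    ClSub.KilledByIdeal ((FSch.idealSpec A J) ^ (n + 1)) ((tilde.functor (CommRingCat.of A)).obj Q) :=
  killedByIdeal_tilde J (n + 1) Q hQ

/-- Full faithfulness of `Q ↦ i_n^* Q~` on modules killed by `J^(n+1)`. -/
theorem restr_tilde_bijective (n : ℕ) (P Q : ModuleCat.{u} A)
    (hQ : ∀ a ∈ J ^ (n + 1), ∀ q : Q, a • q = 0) :
    Function.Bijective (fun f : P ⟶ Q =>
      (restr J n).map ((tilde.functor (CommRingCat.of A)).map f)) := by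
  have h1 : Function.Bijective (fun f : P ⟶ Q => (tilde.functor (CommRingCat.of A)).map f) :=
    ⟨fun _ _ h => (tilde.fullyFaithfulFunctor (R := CommRingCat.of A)).map_injective h,
      fun f => ⟨_, (tilde.fullyFaithfulFunctor (R := CommRingCat.of A)).map_preimage f⟩⟩
  exact (pullback_map_bijective ((FSch.idealSpec A J) ^ (n + 1)) (killed_tilde J n Q hQ)).comp h1

/-- A map whose restriction to level `n` is an isomorphism, with target killed by `J^(n+1)`, is surjective
with kernel `J^(n+1) P`. -/
theorem surjective_ker (n : ℕ) {P Q : ModuleCat.{u} A} (hQ : ∀ a ∈ J ^ (n + 1), ∀ q : Q, a • q = 0)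
    (f : P ⟶ Q) (hf : IsIso ((restr J n).map ((tilde.functor (CommRingCat.of A)).map f))) :
    Function.Surjective f.hom ∧ LinearMap.ker f.hom = (J ^ (n + 1) • ⊤ : Submodule A P) := by
  have hle : (J ^ (n + 1) • ⊤ : Submodule A P) ≤ LinearMap.ker f.hom := by
    intro x hx
    exact map_eq_zero_of_mem (J ^ (n + 1)) f hQ x hx
  let g : quo J P n ⟶ Q := ModuleCat.ofHom ((J ^ (n + 1) • ⊤ : Submodule A P).liftQ f.hom hle)
  have hg : quoπ J P n ≫ g = f := by
    ext x
    rfl
  have h1 : IsIso ((restr J n).map ((tilde.functor (CommRingCat.of A)).map (quoπ J P n))) :=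
    isIso_quoπ J P n
  have h2 : IsIso ((restr J n).map ((tilde.functor (CommRingCat.of A)).map g)) := by
    have h3 : (restr J n).map ((tilde.functor (CommRingCat.of A)).map (quoπ J P n)) ≫
        (restr J n).map ((tilde.functor (CommRingCat.of A)).map g) =
        (restr J n).map ((tilde.functor (CommRingCat.of A)).map f) := by
      rw [← Functor.map_comp, ← Functor.map_comp, hg]
    have h4 : IsIso ((restr J n).map ((tilde.functor (CommRingCat.of A)).map (quoπ J P n)) ≫
        (restr J n).map ((tilde.functor (CommRingCat.of A)).map g)) := by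
      rw [h3]
      exact hf
    exact IsIso.of_isIso_comp_left
      ((restr J n).map ((tilde.functor (CommRingCat.of A)).map (quoπ J P n))) _
  have hkq : ∀ a ∈ J ^ (n + 1), ∀ q : quo J P n, a • q = 0 := by
    intro a ha q
    obtain ⟨x, rfl⟩ := Submodule.mkQ_surjective _ q
    rw [← map_smul]
    exact (Submodule.Quotient.mk_eq_zero _).mpr (Submodule.smul_mem_smul ha trivial)
  obtain ⟨k, hk⟩ := (restr_tilde_bijective J n Q (quo J P n) hkq).2
    (inv ((restr J n).map ((tilde.functor (CommRingCat.of A)).map g)))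
  have hk' : (restr J n).map ((tilde.functor (CommRingCat.of A)).map k) =
    inv ((restr J n).map ((tilde.functor (CommRingCat.of A)).map g)) := hk
  have hgk : g ≫ k = 𝟙 _ := by
    apply (restr_tilde_bijective J n _ _ hkq).1
    change (restr J n).map ((tilde.functor (CommRingCat.of A)).map (g ≫ k)) =
      (restr J n).map ((tilde.functor (CommRingCat.of A)).map (𝟙 _))
    rw [Functor.map_comp, Functor.map_comp, hk', IsIso.hom_inv_id, CategoryTheory.Functor.map_id,
      CategoryTheory.Functor.map_id]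
  have hkg : k ≫ g = 𝟙 _ := by
    apply (restr_tilde_bijective J n _ _ hQ).1
    change (restr J n).map ((tilde.functor (CommRingCat.of A)).map (k ≫ g)) =
      (restr J n).map ((tilde.functor (CommRingCat.of A)).map (𝟙 _))
    rw [Functor.map_comp, Functor.map_comp, hk', IsIso.inv_hom_id, CategoryTheory.Functor.map_id,
      CategoryTheory.Functor.map_id]
  constructor
  · intro q
    obtain ⟨x, hx⟩ := Submodule.mkQ_surjective _ (k.hom q)
    refine ⟨x, ?_⟩
    have h5 : g.hom (k.hom q) = q := congr($hkg q)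
    rw [← h5, ← hx]
    rfl
  · apply le_antisymm _ hle
    intro x hx
    have h6 : g.hom ((quoπ J P n).hom x) = 0 := hx
    have h7 : k.hom (g.hom ((quoπ J P n).hom x)) = (quoπ J P n).hom x :=
      congr($hgk ((quoπ J P n).hom x))
    rw [h6, map_zero] at h7
    exact (Submodule.Quotient.mk_eq_zero _).mp h7.symm

end Groth.Agent.Fcompl.H553.EssSurj
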